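import Mathlib

set_option autoImplicit false

namespace Cfsg.Agent.H2.NC

open Cardinal

/-- the `p`-adic integers embed in the complex numbers -/
theorem nonempty_emb (p : ℕ) [hp : Fact p.Prime] : Nonempty (ℤ_[p] →+* ℂ) := by
  have h1 : #ℚ_[p] = 𝔠 := by
    apply le_antisymm
    · have hs : Function.Surjective (fun s : PadicSeq p => (Quotient.mk _ s : ℚ_[p])) :=
        Quotient.mk_surjective
      calc #ℚ_[p] ≤ #(PadicSeq p) := mk_le_of_surjective hs
        _ ≤ #(ℕ → ℚ) := mk_le_of_injective Subtype.coe_injective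
        _ = 𝔠 := by simp
    · exact continuum_le_cardinal_of_nontriviallyNormedField ℚ_[p]
  have h2 : #(AlgebraicClosure ℚ_[p]) = 𝔠 := by
    apply le_antisymm
    · refine (Algebra.IsAlgebraic.cardinalMk_le_max ℚ_[p] _).trans ?_
      rw [h1]; exact max_le le_rfl aleph0_le_continuum
    · rw [← h1]; exact mk_le_of_injective (algebraMap ℚ_[p] (AlgebraicClosure ℚ_[p])).injective
  have h3 : Nonempty (AlgebraicClosure ℚ_[p] ≃ ℂ) := by
    rw [← Cardinal.eq, h2, Cardinal.mk_complex]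
  obtain ⟨e⟩ := IsAlgClosed.ringEquiv_of_equiv_of_charZero (K := AlgebraicClosure ℚ_[p]) (L := ℂ)
    (by rw [h2]; exact aleph0_lt_continuum) h3
  exact ⟨(e : AlgebraicClosure ℚ_[p] →+* ℂ).comp
    ((algebraMap ℚ_[p] _).comp PadicInt.Coe.ringHom)⟩

end Cfsg.Agent.H2.NC
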